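import Cfsg.Agent.H57.BG.CD

/-!
# The almost simple case of S3561 (helper57)

`reg_of_simple` : `G` primitive on `Ω`, `T` a normal simple subgroup with trivial centralizer, `R` abelian regular: this
gives `Reg A L`, `A` the image of `R` in `Aut T`, `L` the stabiliser in `T`.
-/

set_option autoImplicit false

namespace Cfsg.Agent.H57.BG

open Subgroup MulAction

variable {G Ω : Type*} [Group G] [Finite G] [MulAction G Ω] [Finite Ω] {T : Subgroup G}

/-- `G → Aut T` -/
noncomputable abbrev cT (T : Subgroup G) [T.Normal] : G →* MulAut T := MulAut.conjNormal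

omit [Finite G] in
theorem cT_injective [T.Normal] (hC : centralizer (T : Set G) = ⊥) : Function.Injective (cT T) := by
  rw [injective_iff_map_eq_one]
  intro g hg
  rw [← mem_bot, ← hC, mem_centralizer_iff]
  intro h hh
  have h1 : cT T g (⟨h, hh⟩ : T) = ⟨h, hh⟩ := by rw [hg]; rfl
  have h2 := congrArg Subtype.val h1
  rw [MulAut.conjNormal_apply] at h2
  exact (mul_inv_eq_iff_eq_mul.1 h2).symm

omit [Finite G] in
theorem cT_coe [T.Normal] (t : T) : cT T (t : G) = MulAut.conj t := by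
  ext x
  rw [MulAut.conjNormal_apply, MulAut.conj_apply]
  rfl

omit [Finite G] in
theorem cT_pow_inj [T.Normal] (hC : centralizer (T : Set G) = ⊥) (R : Subgroup G) (p : ℕ) :
    Nat.card {a : R.map (cT T) // a ^ p = 1} = Nat.card {z : R // z ^ p = 1} := by
  set f := R.equivMapOfInjective (cT T) (cT_injective hC)
  refine (Nat.card_congr (Equiv.subtypeEquiv f.toEquiv fun a => ?_)).symm
  constructor
  · intro ha
    have := congrArg f ha
    rwa [map_pow, map_one] at this
  · intro ha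
    apply f.injective
    rw [map_pow, map_one]
    exact ha

/-- the stabiliser of a point in `T` -/
abbrev Ls (T : Subgroup G) (ω : Ω) : Subgroup T := (stabilizer G ω).subgroupOf T

omit [Finite G] [Finite Ω] in
theorem mem_Ls {ω : Ω} {t : T} : t ∈ Ls T ω ↔ (t : G) • ω = ω := Iff.rfl

omit [Finite G] [Finite Ω] in
/-- `g` normalises `L` iff ... -/
theorem map_Ls_eq [T.Normal] {ω : Ω} {g h : G} (hgh : (Ls T ω).map (cT T g).toMonoidHom = (Ls T ω).map (cT T h).toMonoidHom) :
    ∀ t : T, (t : G) • ω = ω ↔ ((h⁻¹ * g) * (t : G) * (h⁻¹ * g)⁻¹) • ω = ω := by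
  have key : ∀ g h : G, (Ls T ω).map (cT T g).toMonoidHom ≤ (Ls T ω).map (cT T h).toMonoidHom → ∀ t : T,
      (t : G) • ω = ω → ((h⁻¹ * g) * (t : G) * (h⁻¹ * g)⁻¹) • ω = ω := by
    intro g h hle t ht
    obtain ⟨s, hs, hst⟩ := hle ⟨t, ht, rfl⟩
    have h1 : cT T h s = cT T g t := hst
    have h2 := congrArg Subtype.val h1
    rw [MulAut.conjNormal_apply, MulAut.conjNormal_apply] at h2
    have h3 : (h⁻¹ * g) * (t : G) * (h⁻¹ * g)⁻¹ = s := by
      calc (h⁻¹ * g) * (t : G) * (h⁻¹ * g)⁻¹ = h⁻¹ * (g * (t : G) * g⁻¹) * h := by group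
        _ = h⁻¹ * (h * (s : G) * h⁻¹) * h := by rw [h2]
        _ = s := by group
    rw [h3]
    exact hs
  intro t
  constructor
  · exact key g h hgh.le t
  · intro ht
    have hn : (h⁻¹ * g) * (t : G) * (h⁻¹ * g)⁻¹ ∈ T := (inferInstance : T.Normal).conj_mem _ t.2 _
    have h1 := key h g hgh.ge ⟨_, hn⟩ ht
    have h2 : (g⁻¹ * h) * ((h⁻¹ * g) * (t : G) * (h⁻¹ * g)⁻¹) * (g⁻¹ * h)⁻¹ = t := by group
    change ((g⁻¹ * h) * ((h⁻¹ * g) * (t : G) * (h⁻¹ * g)⁻¹) * (g⁻¹ * h)⁻¹) • ω = ω at h1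
    rwa [h2] at h1

omit [Finite G] [Finite Ω] in
theorem map_conj_of_smul [T.Normal] {ω : Ω} {g h : G} (hgh : g • ω = h • ω) :
    (Ls T ω).map (cT T g).toMonoidHom = (Ls T ω).map (cT T h).toMonoidHom := by
  have key : ∀ g h : G, g • ω = h • ω → (Ls T ω).map (cT T g).toMonoidHom ≤ (Ls T ω).map (cT T h).toMonoidHom := by
    rintro g h hgh _ ⟨t, ht, rfl⟩
    have hn : (h⁻¹ * g) * (t : G) * (h⁻¹ * g)⁻¹ ∈ T := (inferInstance : T.Normal).conj_mem _ t.2 _
    refine ⟨⟨_, hn⟩, ?_, ?_⟩
    · change ((h⁻¹ * g) * (t : G) * (h⁻¹ * g)⁻¹) • ω = ω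
      have h1 : (h⁻¹ * g)⁻¹ • ω = ω := by
        rw [inv_smul_eq_iff, mul_smul, hgh, inv_smul_smul]
      have h2 : (h⁻¹ * g) • ω = ω := by
        rw [mul_smul, hgh, inv_smul_smul]
      have h3 : (t : G) • ω = ω := ht
      rw [mul_smul, h1, mul_smul, h3, h2]
    · apply Subtype.ext
      change ((cT T h ⟨_, hn⟩ : T) : G) = ((cT T g t : T) : G)
      rw [MulAut.conjNormal_apply, MulAut.conjNormal_apply]
      group
  exact le_antisymm (key g h hgh) (key h g hgh.symm)

theorem reg_of_simple (hprim : IsPreprimitive G Ω) [FaithfulSMul G Ω] [hTn : T.Normal] [hTs : IsSimpleGroup T]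
    (hC : centralizer (T : Set G) = ⊥) {ω : Ω} (hT : ∀ x y : Ω, ∃ n ∈ T, n • x = y)
    (hst : ∃ t ∈ T, t ≠ 1 ∧ t • ω = ω) (h1 : 1 < Nat.card Ω) (hnpp : ¬ IsPrimePow (Nat.card Ω))
    (hn2 : ¬ IsMultiplyPretransitive G Ω 2)
    (R : Subgroup G) (hR : ∀ x ∈ R, ∀ y ∈ R, x * y = y * x) (hRt : ∀ x y : Ω, ∃ r ∈ R, r • x = y)
    (hRf : ∀ x : Ω, ∀ r ∈ R, r • x = x → r = 1) (hRc : Nat.card R = Nat.card Ω)
    (hbig : ∀ p : ℕ, p.Prime → p ∣ Nat.card R → p ^ 2 ≤ Nat.card {z : R // z ^ p = 1}) (hnf : ¬ EqFac R) :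
    Reg (R.map (cT T)) (Ls T ω) := by
  classical
  have hnt : Nontrivial Ω := Finite.one_lt_card_iff_nontrivial.mp h1
  -- maximality of the stabiliser
  have hmaxK : IsCoatom (stabilizer G ω) := (isCoatom_stabilizer_iff_preprimitive G ω).mpr hprim
  have hcardT : (Ls T ω).index = Nat.card Ω := by
    have hpt : IsPretransitive T Ω := ⟨fun x y => by
      obtain ⟨n, hn, hnx⟩ := hT x y
      exact ⟨⟨n, hn⟩, hnx⟩⟩
    have h2 : Ls T ω = stabilizer T ω := by
      ext t
      rfl
    rw [h2, MulAction.index_stabilizer, MulAction.orbit_eq_univ, Set.ncard_univ]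
  have hAc : Nat.card (R.map (cT T)) = Nat.card Ω := by
    rw [Subgroup.card_map_of_injective (cT_injective hC), hRc]
  have hproper : Ls T ω ≠ ⊤ := by
    intro h2
    rw [h2, index_top] at hcardT
    omega
  have hKn : ∀ g : G, (∀ t : T, (t : G) • ω = ω ↔ (g * (t : G) * g⁻¹) • ω = ω) → g • ω = ω := by
    -- the normaliser of `L`
    let W : Subgroup G :=
      { carrier := {g | ∀ t : T, (t : G) • ω = ω ↔ (g * (t : G) * g⁻¹) • ω = ω}
        one_mem' := fun t => by simp
        mul_mem' := by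
          intro a b ha hb t
          have hn : b * (t : G) * b⁻¹ ∈ T := hTn.conj_mem _ t.2 b
          have h2 := ha ⟨_, hn⟩
          have h3 : (a * b) * (t : G) * (a * b)⁻¹ = a * (b * (t : G) * b⁻¹) * a⁻¹ := by group
          rw [h3, ← h2]
          exact hb t
        inv_mem' := by
          intro a ha t
          have hn : a⁻¹ * (t : G) * a ∈ T := by
            have := hTn.conj_mem _ t.2 a⁻¹
            rwa [inv_inv] at this
          have h2 := ha ⟨_, hn⟩
          have h3 : a * (a⁻¹ * (t : G) * a) * a⁻¹ = t := by group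
          change (a⁻¹ * (t : G) * a) • ω = ω ↔ (a * (a⁻¹ * (t : G) * a) * a⁻¹) • ω = ω at h2
          rw [h3] at h2
          rw [inv_inv]
          exact h2.symm }
    have hKW : stabilizer G ω ≤ W := by
      intro k hk t
      have hk' : k • ω = ω := hk
      have hk2 : k⁻¹ • ω = ω := by rw [inv_smul_eq_iff, hk']
      constructor
      · intro ht
        rw [mul_smul, hk2, mul_smul, ht, hk']
      · intro ht
        rw [mul_smul, hk2, mul_smul] at ht
        have := congrArg (k⁻¹ • ·) ht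
        simp only [inv_smul_smul] at this
        rw [this, hk2]
    rcases eq_or_lt_of_le hKW with h2 | h2
    · intro g hg
      have : g ∈ W := hg
      rw [← h2] at this
      exact this
    · exfalso
      have h3 : W = ⊤ := hmaxK.2 W h2
      -- `L` is normal in `G`
      obtain ⟨t, htT, ht1, htω⟩ := hst
      have hLn : (Ls T ω).Normal := by
        constructor
        intro x hx s
        have h4 : (s : G) ∈ W := by rw [h3]; exact mem_top _
        exact (h4 x).1 hx
      rcases hLn.eq_bot_or_eq_top with h5 | h5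
      · have h6 : (⟨t, htT⟩ : T) ∈ Ls T ω := htω
        rw [h5, mem_bot] at h6
        exact ht1 (congrArg Subtype.val h6)
      · exact hproper h5
  refine
    { comm := ?_
      proper := hproper
      card := by rw [hAc, hcardT]
      norm := ?_
      trans := ?_
      free := ?_
      npp := by rwa [hAc]
      big := ?_
      notTwo := ?_
      prim := ?_
      nf := fun hf => hnf (hf.congr (R.equivMapOfInjective (cT T) (cT_injective hC)).symm) }
  · rintro _ ⟨a, ha, rfl⟩ _ ⟨b, hb, rfl⟩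
    rw [← map_mul, ← map_mul, hR a ha b hb]
  · apply le_antisymm _ le_normalizer
    intro s hs
    rw [mem_normalizer_iff] at hs
    exact hKn (s : G) fun t => hs t
  · intro s
    obtain ⟨r, hr, hrs⟩ := hRt ω ((s : G) • ω)
    refine ⟨_, ⟨r, hr, rfl⟩, ?_⟩
    rw [← cT_coe s]
    exact map_conj_of_smul hrs
  · rintro _ ⟨r, hr, rfl⟩ s hs
    have h2 : (Ls T ω).map (cT T (r * (s : G))).toMonoidHom = (Ls T ω).map (cT T (s : G)).toMonoidHom := by
      rw [← cT_coe s, Subgroup.map_map] at hs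
      rw [map_mul]
      exact hs
    have h3 := hKn ((s : G)⁻¹ * (r * (s : G))) (map_Ls_eq h2)
    have h4 : r • ((s : G) • ω) = (s : G) • ω := by
      rw [mul_smul, mul_smul, inv_smul_eq_iff] at h3
      exact h3
    rw [hRf _ r hr h4, map_one]
  · intro p hp hd
    rw [Subgroup.card_map_of_injective (cT_injective hC)] at hd
    rw [cT_pow_inj hC]
    exact hbig p hp hd
  · intro h2
    apply hn2
    rw [is_two_pretransitive_iff] at h2 ⊢
    intro a b c d hab hcd
    obtain ⟨a', ha', rfl⟩ := hT ω a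
    obtain ⟨b', hb', rfl⟩ := hT ω b
    obtain ⟨c', hc', rfl⟩ := hT ω c
    obtain ⟨d', hd', rfl⟩ := hT ω d
    have key : ∀ x y : T, ((x : T) : T ⧸ Ls T ω) = (y : T) ↔ (x : G) • ω = (y : G) • ω := by
      intro x y
      rw [QuotientGroup.eq]
      change ((x : G)⁻¹ * (y : G)) • ω = ω ↔ _
      rw [mul_smul, inv_smul_eq_iff, eq_comm]
    obtain ⟨g, hg1, hg2⟩ := h2 (a := ((⟨a', ha'⟩ : T) : T ⧸ Ls T ω)) (b := ((⟨b', hb'⟩ : T) : T ⧸ Ls T ω))
      (c := ((⟨c', hc'⟩ : T) : T ⧸ Ls T ω)) (d := ((⟨d', hd'⟩ : T) : T ⧸ Ls T ω))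
      (fun h => hab ((key _ _).1 h)) (fun h => hcd ((key _ _).1 h))
    refine ⟨(g : G), ?_, ?_⟩
    · have h3 : (((g * ⟨a', ha'⟩ : T)) : T ⧸ Ls T ω) = ((⟨c', hc'⟩ : T)) := hg1
      rw [key] at h3
      rw [← h3, ← mul_smul]
      rfl
    · have h3 : (((g * ⟨b', hb'⟩ : T)) : T ⧸ Ls T ω) = ((⟨d', hd'⟩ : T)) := hg2
      rw [key] at h3
      rw [← h3, ← mul_smul]
      rfl
  · refine ⟨(cT T).range, ?_, fun s => ⟨(s : G), cT_coe s⟩, fun M hLM hM => ?_⟩
    · rintro _ ⟨r, -, rfl⟩
      exact ⟨r, rfl⟩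
    · -- `K` normalises `M`
      have hKM : ∀ k ∈ stabilizer G ω, ∀ x ∈ M, cT T k x ∈ M := by
        intro k hk x hx
        have h2 := hM (cT T k) ⟨k, rfl⟩ (by
          have h3 := map_conj_of_smul (T := T) (ω := ω) (g := k) (h := 1) (by rw [one_smul]; exact hk)
          rw [h3, map_one]
          exact Subgroup.map_id _)
        rw [← h2]
        exact ⟨x, hx, rfl⟩
      -- the group `M K`
      let W : Subgroup G :=
        { carrier := {g | ∃ x ∈ M, ∃ k ∈ stabilizer G ω, g = (x : G) * k}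
          one_mem' := ⟨1, M.one_mem, 1, one_mem _, by simp⟩
          mul_mem' := by
            rintro _ _ ⟨x, hx, k, hk, rfl⟩ ⟨y, hy, l, hl, rfl⟩
            refine ⟨x * cT T k y, M.mul_mem hx (hKM k hk y hy), k * l, mul_mem hk hl, ?_⟩
            rw [Subgroup.coe_mul, MulAut.conjNormal_apply]
            group
          inv_mem' := by
            rintro _ ⟨x, hx, k, hk, rfl⟩
            refine ⟨cT T k⁻¹ x⁻¹, hKM _ (inv_mem hk) _ (M.inv_mem hx), k⁻¹, inv_mem hk, ?_⟩
            rw [MulAut.conjNormal_apply, Subgroup.coe_inv]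
            group }
      have hKW : stabilizer G ω ≤ W := fun k hk => ⟨1, M.one_mem, k, hk, by simp⟩
      rcases eq_or_lt_of_le hKW with h2 | h2
      · left
        apply le_antisymm _ hLM
        intro x hx
        have h3 : (x : G) ∈ W := ⟨x, hx, 1, one_mem _, by simp⟩
        rw [← h2] at h3
        exact h3
      · right
        have h3 : W = ⊤ := hmaxK.2 W h2
        rw [eq_top_iff]
        intro t _
        have h4 : (t : G) ∈ W := by rw [h3]; exact mem_top _
        obtain ⟨x, hx, k, hk, hxk⟩ := h4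
        have h5 : k = ((x⁻¹ * t : T) : G) := by
          rw [Subgroup.coe_mul, Subgroup.coe_inv, hxk]
          group
        have h6 : x⁻¹ * t ∈ M := hLM (by
          change ((x⁻¹ * t : T) : G) • ω = ω
          rw [← h5]
          exact hk)
        have h7 := M.mul_mem hx h6
        rwa [mul_inv_cancel_left] at h7

end Cfsg.Agent.H57.BG
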