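import Cfsg.Agent.H57.BG.Kill
import Cfsg.Prelude.Def_KGroupFacts

/-!
# `4 |Out X| < |X|` (S3561, helper57)
-/

set_option autoImplicit false

namespace Cfsg.Agent.H57.BG

open Subgroup

theorem num_bound (n : ℕ) (hn : 60 ≤ n) : n ^ 12 < 2 ^ (n + 12) := by
  induction n, hn using Nat.le_induction with
  | base => norm_num
  | succ n hn ih =>
    have h1 : (n + 1) ^ 12 ≤ 2 * n ^ 12 := by
      have h2 : 60 * (n + 1) ≤ 61 * n := by omega
      have h3 : (60 * (n + 1)) ^ 12 ≤ (61 * n) ^ 12 := Nat.pow_le_pow_left h2 12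
      rw [mul_pow, mul_pow] at h3
      have h4 : 61 ^ 12 * n ^ 12 ≤ 60 ^ 12 * (2 * n ^ 12) := by
        have : (61 : ℕ) ^ 12 ≤ 60 ^ 12 * 2 := by norm_num
        calc 61 ^ 12 * n ^ 12 ≤ (60 ^ 12 * 2) * n ^ 12 := Nat.mul_le_mul_right _ this
          _ = _ := by ring
      exact Nat.le_of_mul_le_mul_left (h3.trans h4) (by positivity)
    calc (n + 1) ^ 12 ≤ 2 * n ^ 12 := h1
      _ < 2 * 2 ^ (n + 12) := by omega
      _ = 2 ^ (n + 1 + 12) := by ring

theorem card_out_eq (X : Type*) [Group X] : Nat.card (Cfsg.Out X) = (Inn X).index := rfl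

theorem four_mul_lt {X : Type*} [Group X] [Finite X] (hna : ∃ a b : X, a * b ≠ b * a) (h60 : 60 ≤ Nat.card X)
    (hbd : ∀ H : Subgroup X, H ≠ ⊤ → 2 ^ Nat.card (Cfsg.Out X) ≤ H.index ^ 3) : 4 * (Inn X).index < Nat.card X := by
  obtain ⟨a, b, hab⟩ := hna
  have ha1 : a ≠ 1 := by
    rintro rfl
    simp at hab
  have hH : zpowers a ≠ ⊤ := by
    intro h
    have h1 : b ∈ zpowers a := by rw [h]; exact mem_top b
    obtain ⟨k, rfl⟩ := mem_zpowers_iff.1 h1
    exact hab ((Commute.refl a).zpow_right k).eq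
  have h1 := hbd _ hH
  rw [card_out_eq] at h1
  have h2 : 2 ≤ Nat.card (zpowers a) := by
    have h3 : Nat.card (zpowers a) ≠ 1 := fun h => ha1 (zpowers_eq_bot.1 (Subgroup.card_eq_one.1 h))
    have h4 : 0 < Nat.card (zpowers a) := Nat.card_pos
    omega
  have h3 : 2 * (zpowers a).index ≤ Nat.card X := by
    rw [← (zpowers a).card_mul_index]
    exact Nat.mul_le_mul_right _ h2
  by_contra hcon
  have h4 : Nat.card X ≤ 4 * (Inn X).index := not_lt.1 hcon
  have h5 : 2 ^ Nat.card X ≤ (zpowers a).index ^ 12 := by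
    calc 2 ^ Nat.card X ≤ 2 ^ (4 * (Inn X).index) := Nat.pow_le_pow_right (by norm_num) h4
      _ = (2 ^ (Inn X).index) ^ 4 := by rw [← pow_mul, mul_comm]
      _ ≤ ((zpowers a).index ^ 3) ^ 4 := Nat.pow_le_pow_left h1 4
      _ = _ := by rw [← pow_mul]
  have h6 : (2 * (zpowers a).index) ^ 12 ≤ Nat.card X ^ 12 := Nat.pow_le_pow_left h3 12
  rw [mul_pow] at h6
  have h7 := num_bound _ h60
  have h8 : 2 ^ (Nat.card X + 12) ≤ 2 ^ 12 * (zpowers a).index ^ 12 := by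
    rw [pow_add, mul_comm]
    exact Nat.mul_le_mul_left _ h5
  omega

end Cfsg.Agent.H57.BG
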